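import Cfsg.Agent.H865.L5.Iso
import Cfsg.Agent.H343.L5.FiveElt
import Cfsg.Agent.H762.L5.MemRefl
import Cfsg.Agent.H795.TorSub
import Cfsg.Agent.H559.L5.FiveReg
import Cfsg.Agent.H129.EE.NFive
import Cfsg.Agent.S1093

/-!
# S5924, T2 (helper969): torality of `f VL`

`toral_VL_of` : with the pieces A, B, T4 as hypotheses; `toral_VL`.
-/

set_option autoImplicit false
set_option linter.unusedSectionVars false

namespace Cfsg.Agent.H969.L5

open CoxeterSystem Subgroup Cfsg Cfsg.Lie Cfsg.Lie.ChevalleyDatum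
open Cfsg.Agent.ChevalleyStructure Cfsg.Agent.ChevalleyStructure.Elts Cfsg.Agent.ChevalleyStructure.CoxeterGeom
  Cfsg.Agent.ChevalleyStructure.CoxeterGeomTypes Cfsg.Agent.ChevalleyStructure.NPerm
open Cfsg.Agent.Tits.Roots Cfsg.Agent.Tits.Core Cfsg.Agent.Nodes Cfsg.Agent.Nodes.SubComb Cfsg.Agent.Nodes.Reps
  Cfsg.Agent.Nodes.BNOf Cfsg.Agent.Nodes.RGDChev Cfsg.Agent.Nodes.Bruhat Cfsg.Agent.Nodes.Coroot
open Cfsg.Agent.KFacts.RgdField Cfsg.Agent.KFacts.RgdChevCoord Cfsg.Agent.BpExc.TorCent Cfsg.Agent.BpExc.TorChev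
open Cfsg.Agent.GpExc.Field Cfsg.Agent.BpExc.Tow Cfsg.Agent.BpExc.TowChev Cfsg.Agent.BpExc.Fr
  Cfsg.Agent.BpExc.LangFr Cfsg.Agent.BpExc.FamField Cfsg.Agent.BpExc.FamInst Cfsg.Agent.H129.TorusChar
  Cfsg.Agent.H795.LangT Cfsg.Agent.BpExc.FamExt Cfsg.Agent.BpExc.FamUntw Cfsg.Agent.H378.TorDual Cfsg.Agent.H378.TorChar
  Cfsg.Agent.H378.TorFin Cfsg.Agent.H378.RankOne Cfsg.Agent.H378.RootTor Cfsg.Agent.H865.EE Cfsg.Agent.H865.L5

attribute [local irreducible] w8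

/-! ### Unitriangular matrices -/

theorem vp_eq (a b : ZMod 5) : vp a b = us a b 0 := by
  apply Subtype.ext
  rfl

theorem vl_eq (a b : ZMod 5) : vl a b = us 0 a b := by
  apply Subtype.ext
  rfl

theorem us_mul (a b c a' b' c' : ZMod 5) : us a b c * us a' b' c' = us (a + a') (b + b' + a * c') (c + c') := by
  apply Subtype.ext
  show (!![1, a, b; 0, 1, c; 0, 0, 1] : Matrix (Fin 3) (Fin 3) (ZMod 5)) * !![1, a', b'; 0, 1, c'; 0, 0, 1] =
    !![1, a + a', b + b' + a * c'; 0, 1, c + c'; 0, 0, 1]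
  ext i j
  fin_cases i <;> fin_cases j <;> simp [Matrix.mul_apply, Fin.sum_univ_three] <;> ring

theorem us_zero : us 0 0 0 = 1 := by
  apply Subtype.ext
  show (!![1, 0, 0; 0, 1, 0; 0, 0, 1] : Matrix (Fin 3) (Fin 3) (ZMod 5)) = 1
  ext i j
  fin_cases i <;> fin_cases j <;> rfl

theorem us_inj {a b c a' b' c' : ZMod 5} (h : us a b c = us a' b' c') : a = a' ∧ b = b' ∧ c = c' := by
  have h1 := fun i j => congrFun (congrFun (congrArg Subtype.val h) i) j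
  exact ⟨h1 0 1, h1 0 2, h1 1 2⟩

theorem us_pow (b c : ZMod 5) (n : ℕ) : us 0 b c ^ n = us 0 (n * b) (n * c) := by
  induction n with
  | zero => rw [pow_zero, Nat.cast_zero, zero_mul, zero_mul, us_zero]
  | succ n ih =>
    rw [pow_succ, ih, us_mul, Nat.cast_succ]
    congr 1 <;> ring

theorem us_pow' (a b : ZMod 5) (n : ℕ) : us a b 0 ^ n = us (n * a) (n * b) 0 := by
  induction n with
  | zero => rw [pow_zero, Nat.cast_zero, zero_mul, zero_mul, us_zero]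
  | succ n ih =>
    rw [pow_succ, ih, us_mul, Nat.cast_succ]
    congr 1 <;> ring

/-- the subgroup `VL` -/
def VLs : Subgroup SL35 where
  carrier := VL
  one_mem' := ⟨0, 0, by rw [vl_eq, us_zero]⟩
  mul_mem' := by
    rintro _ _ ⟨a, b, rfl⟩ ⟨a', b', rfl⟩
    refine ⟨a + a', b + b', ?_⟩
    rw [vl_eq, vl_eq, vl_eq, us_mul]
    congr 1
    ring
  inv_mem' := by
    rintro _ ⟨a, b, rfl⟩
    refine ⟨-a, -b, ?_⟩
    rw [inv_eq_iff_mul_eq_one, vl_eq, vl_eq, us_mul, ← us_zero]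
    congr 1 <;> ring

theorem VLs_pow {x : SL35} (hx : x ∈ VLs) : x ^ 5 = 1 := by
  obtain ⟨a, b, rfl⟩ := hx
  have h5 : ((5 : ℕ) : ZMod 5) = 0 := by decide
  rw [vl_eq, us_pow, h5, zero_mul, zero_mul, us_zero]

theorem vl_word (a b : ZMod 5) : vl a b = us 0 1 0 ^ a.val * us 0 0 1 ^ b.val := by
  rw [us_pow, us_pow, us_mul, vl_eq, ZMod.natCast_zmod_val, ZMod.natCast_zmod_val]
  congr 1 <;> ring

theorem conj_vp (a b : ZMod 5) : (us 0 0 1)⁻¹ * us a b 0 * us 0 0 1 = us a (b + a) 0 := by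
  rw [mul_assoc, inv_mul_eq_iff_eq_mul, us_mul, us_mul]
  congr 1 <;> ring

theorem not_dvd_W8 : ¬ 5 ^ (2 + 1) ∣ Nat.card CoxeterMatrix.E₈.Group := by
  rw [Cfsg.Agent.S1093.result (⟨8, CoxeterMatrix.E₈⟩, 696729600) (by simp)]
  norm_num

section T

variable {k : Type} [Field k] [CharP k 3] [IsAlgClosed k] [PerfectRing k 3]

theorem rp_pow (hk : LocFin k) {u : W8} {y : ↥(chevE8.group k)} (h : Rp cs8 (nsysL tp8 cs8 hk 3) u y) (n : ℕ) :
    Rp cs8 (nsysL tp8 cs8 hk 3) (u ^ n) (y ^ n) := by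
  induction n with
  | zero => rw [pow_zero, pow_zero]; exact rp_one
  | succ n ih => rw [pow_succ, pow_succ]; exact ih.mul h

/-- **T2, from the pieces A, B, T4.** -/
theorem toral_VL_of (hk : LocFin k)
    (hiso : ∀ {ζ : k}, IsPrimitiveRoot ζ 5 →
      ∃ e : Module.Dual (ZMod 5) (Fin 4 → ZMod 5) → ↥(chevE8.group k), Function.Injective e ∧ Set.range e = T5 k ∧
        (∀ φ ψ, e (φ + ψ) = e φ * e ψ) ∧ ∀ φ x, cX tp8 (e φ) x = ζ ^ (φ (PP x)).val)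
    (hzeta : ∃ ζ : k, IsPrimitiveRoot ζ 5)
    (hcent : ∀ {S : Set ↥(chevE8.group k)}, S ⊆ T5 k → Reg S → ∀ {y : ↥(chevE8.group k)},
      (∀ t ∈ S, y * t = t * y) → ∃ w : W8, Rp cs8 (nsysL tp8 cs8 hk 3) w y ∧
        ∀ t ∈ S, ∀ x, cX tp8 t (act w x) = cX tp8 t x)
    (hnorm : ∀ {y : ↥(chevE8.group k)}, y ∈ GT k → (∀ t ∈ T5 k, y * t * y⁻¹ ∈ T5 k) →
      ∃ v ∈ CW, Rp cs8 (nsysL tp8 cs8 hk 3) v y)
    (hcw : ∀ {y : ↥(chevE8.group k)}, y ∈ GT k → ∀ {w : W8}, Rp cs8 (nsysL tp8 cs8 hk 3) w y → w ∈ CW)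
    (hline : ∀ {u : W8}, u ∈ CW → u ^ 5 = 1 → u ≠ 1 → ∀ {φ ψ : Module.Dual (ZMod 5) (Fin 4 → ZMod 5)},
      (∀ x, φ (PP (act u x)) = φ (PP x)) → (∀ x, ψ (PP (act u x)) = ψ (PP x)) → φ ≠ 0 → ∃ c : ZMod 5, ψ = c • φ)
    (helt : ∀ {u : W8}, u ∈ CW → ∀ {n : ℕ}, u ^ 5 ^ n = 1 → u ^ 5 = 1)
    (hrefl : ∀ {u : W8}, u ∈ CW → u ^ 5 = 1 → u ≠ 1 → ∀ {φ : Module.Dual (ZMod 5) (Fin 4 → ZMod 5)},
      (∀ x, φ (PP (act u x)) = φ (PP x)) → u ∈ Subgroup.closure {v | ∃ a, Rt a ∧ φ (PP a) = 0 ∧ v = rf a})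
    (f : SL35 →* ↥(chevE8.group k)) (hf : Function.Injective f) (hr : ∀ x, f x ∈ GT k)
    (h : ∀ s ∈ VP, f s ∈ T5 k) (hreg : Reg (f '' VP)) :
    ∃ g : ↥(chevE8.group k), ∀ s ∈ VL, g * f s * g⁻¹ ∈ TT chevE8 k := by
  classical
  obtain ⟨ζ, hζ⟩ := hzeta
  obtain ⟨e, he, her, hem, hex⟩ := hiso hζ
  have hcomm := TT_comm tp8 (K := k)
  have hzinj : ∀ a b : ZMod 5, ζ ^ a.val = ζ ^ b.val → a = b := by
    intro a b hab
    exact ZMod.val_injective 5 (hζ.pow_inj (ZMod.val_lt a) (ZMod.val_lt b) hab)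
  have he0 : e 0 = 1 := by
    have h1 := hem 0 0
    rw [add_zero] at h1
    exact (mul_eq_left.1 h1.symm)
  have hes : ∀ (c : ZMod 5) φ, e (c • φ) = e φ ^ c.val := by
    intro c φ
    have h1 : ∀ n : ℕ, e (n • φ) = e φ ^ n := by
      intro n
      induction n with
      | zero => rw [zero_nsmul, he0, pow_zero]
      | succ n ih => rw [succ_nsmul, hem, ih, pow_succ]
    rw [← h1, ← Nat.cast_smul_eq_nsmul (ZMod 5), ZMod.natCast_zmod_val]
  have hT5T : ∀ t ∈ T5 k, t ∈ TT chevE8 k := fun t ht => ht.1.1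
  have hVP : ∀ a b, f (us a b 0) ∈ T5 k := fun a b => h _ ⟨a, b, (vp_eq a b).symm⟩
  -- a representative of `w` commuting with the elements of `f VP` which lies in `GT k` is in the torus
  have key1 : ∀ z ∈ GT k, (∀ a b, z * f (us a b 0) = f (us a b 0) * z) → z ∈ TT chevE8 k := by
    intro z hz hzc
    obtain ⟨w, hw, hwx⟩ := hcent (S := f '' VP) (by rintro _ ⟨s, hs, rfl⟩; exact h s hs) hreg (y := z) (by
      rintro _ ⟨s, ⟨a, b, rfl⟩, rfl⟩
      rw [vp_eq]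
      exact hzc a b)
    have hwC := hcw hz hw
    have hfix : ∀ φ ∈ {φ | e φ ∈ f '' VP}, ∀ x, φ (PP (act w x)) = φ (PP x) := by
      intro φ hφ x
      apply hzinj
      rw [← hex, ← hex]
      exact hwx _ hφ x
    obtain ⟨n, hn⟩ := H559.L5.five_of_reg (Φ := {φ | e φ ∈ f '' VP}) (fun a ha => by
      obtain ⟨t, ht, hta⟩ := hreg a ha
      have ht5 : t ∈ T5 k := by
        obtain ⟨s, hs, rfl⟩ := ht
        exact h s hs
      rw [← her] at ht5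
      obtain ⟨φ, rfl⟩ := ht5
      refine ⟨φ, ht, fun h0 => hta ?_⟩
      rw [hex, h0, ZMod.val_zero, pow_zero]) hfix
    have hw5 := helt hwC hn
    by_cases hw1 : w = 1
    · rw [hw1] at hw
      exact hw.mem_of_one
    exfalso
    obtain ⟨φ, hφ⟩ : f (us 1 0 0) ∈ Set.range e := by rw [her]; exact hVP 1 0
    obtain ⟨ψ, hψ⟩ : f (us 0 1 0) ∈ Set.range e := by rw [her]; exact hVP 0 1
    have hφ0 : φ ≠ 0 := by
      rintro rfl
      rw [he0, ← map_one f] at hφ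
      have h1 := hf hφ
      rw [← us_zero] at h1
      exact absurd (us_inj h1).1 (by decide)
    obtain ⟨c, hc⟩ := hline hwC hw5 hw1 (φ := φ) (ψ := ψ)
      (hfix φ (show e φ ∈ f '' VP by rw [hφ]; exact ⟨_, ⟨1, 0, vp_eq 1 0 ▸ rfl⟩, rfl⟩))
      (hfix ψ (show e ψ ∈ f '' VP by rw [hψ]; exact ⟨_, ⟨0, 1, vp_eq 0 1 ▸ rfl⟩, rfl⟩)) hφ0
    rw [hc, hes, hφ, ← map_pow, us_pow'] at hψ
    have h1 := us_inj (hf hψ)
    have h2 := h1.2.1
    rw [mul_zero] at h2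
    exact absurd h2 (by decide)
  set y := f (us 0 0 1) with hy
  set t := f (us 0 1 0) with ht
  have hyG : y ∈ GT k := hr _
  have hy5 : y ^ 5 = 1 := by
    rw [hy, ← map_pow, us_pow]
    have h5 : ((5 : ℕ) : ZMod 5) = 0 := by decide
    rw [h5, zero_mul, zero_mul, us_zero, map_one]
  -- `y` normalises `T5`
  have hyN : ∀ s ∈ T5 k, y * s * y⁻¹ ∈ T5 k := by
    intro s hs
    have hG : y * s * y⁻¹ ∈ GT k := (GT k).mul_mem ((GT k).mul_mem hyG hs.1.2) ((GT k).inv_mem hyG)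
    have hT := key1 _ hG (fun a b => by
      have h1 : y⁻¹ * f (us a b 0) * y = f (us a (b + a) 0) := by
        rw [hy, ← map_inv, ← map_mul, ← map_mul, conj_vp]
      have h2 := hcomm s (hT5T s hs) _ (hT5T _ (hVP a (b + a)))
      rw [← h1] at h2
      calc y * s * y⁻¹ * f (us a b 0) = y * (s * (y⁻¹ * f (us a b 0) * y)) * y⁻¹ := by group
        _ = y * (y⁻¹ * f (us a b 0) * y * s) * y⁻¹ := by rw [h2]
        _ = _ := by group)
    refine ⟨⟨hT, hG⟩, ?_⟩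
    rw [conj_pow, hs.2, mul_one, mul_inv_cancel]
  obtain ⟨u, huC, hu⟩ := hnorm hyG hyN
  -- a representative commuting with `T5` is trivial
  have hone : ∀ w : W8, Rp cs8 (nsysL tp8 cs8 hk 3) w 1 → w = 1 := by
    intro w hw
    refine eq_one_of_fix cs8 tp8.isCartan _ fun i => ?_
    have hri := isRoot_sr cs8 tp8.isCartan i
    refine PP_inj (rt_act hri w) hri ?_
    funext j
    obtain ⟨φ, hφ⟩ : ∃ φ : Module.Dual (ZMod 5) (Fin 4 → ZMod 5), ∀ c, φ c = c j := ⟨LinearMap.proj j, fun _ => rfl⟩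
    have h3 : φ (PP (act w (sr i))) = φ (PP (sr i)) → PP (act w (sr i)) j = PP (sr i) j := by
      rw [hφ, hφ]
      exact id
    apply h3
    apply hzinj
    have he5 : e φ ∈ T5 k := by rw [← her]; exact ⟨φ, rfl⟩
    have h2 := cX_rp tp8 cs8 hk 3 hw (hT5T _ he5) (sr i)
    rw [one_mul, inv_one, mul_one, hex, hex] at h2
    exact h2
  have hu5 : u ^ 5 = 1 := hone _ (by
    have h1 := rp_pow hk hu 5
    rwa [hy5] at h1)
  by_cases hu1 : u = 1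
  · rw [hu1] at hu
    have hyT := hu.mem_of_one
    refine ⟨1, ?_⟩
    rintro _ ⟨a, b, rfl⟩
    rw [one_mul, inv_one, mul_one, vl_word, map_mul, map_pow, map_pow]
    exact mul_mem (pow_mem (hT5T _ (hVP 0 1)) _) (pow_mem hyT _)
  -- the main case
  have ht5 : t ∈ T5 k := hVP 0 1
  have htT : t ∈ TT chevE8 k := hT5T t ht5
  obtain ⟨φ, hφ⟩ : t ∈ Set.range e := by rw [her]; exact ht5
  have hyt : y * t * y⁻¹ = t := by
    rw [hy, ht, ← map_inv, ← map_mul, ← map_mul]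
    congr 1
    rw [mul_inv_eq_iff_eq_mul, us_mul, us_mul]
    congr 1
  have hinv : ∀ x, φ (PP (act u x)) = φ (PP x) := by
    intro x
    apply hzinj
    rw [← hex, ← hex, hφ]
    have h2 := cX_rp tp8 cs8 hk 3 hu htT x
    rwa [hyt] at h2
  have hucl := hrefl huC hu5 hu1 hinv
  have H := tow tp8 cs8 hk 3
  have hTL := TL_eq (k := k) tp8 hk
  have C : Coords cs8 tp8.isCartan (TL (Tj tp8 (k := k))) (nc tp8 k) (XL (Xj tp8)) (xc tp8) (ch tp8) := by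
    rw [TL_eq tp8 hk, XL_eq tp8 hk]
    exact coordsL tp8 cs8 hk 3
  have hA : ChAdd cs8 tp8.isCartan (TL (Tj tp8 (k := k))) (ch (K := k) tp8) := by
    rw [TL_eq tp8 hk]
    exact chAddL tp8 cs8 hk 3
  have hZ : ({t} : Set ↥(chevE8.group k)) ⊆ TT chevE8 k := Set.singleton_subset_iff.2 htT
  have hVV : Subgroup.closure {v | ∃ a, Rt a ∧ φ (PP a) = 0 ∧ v = rf a} ≤
      H795.SetCent.VV H (ch tp8) ({t} : Set ↥(chevE8.group k)) := by
    refine (Subgroup.closure_le _).2 ?_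
    rintro _ ⟨a, ha, ha0, rfl⟩
    obtain ⟨w, i, hwi⟩ := id ha
    have e1 : rf a = rfl' cs8 w i := by
      refine act_ext fun x => ?_
      rw [act_rf ha, show act (rfl' cs8 w i) x = _ from rep_rfl'_eq cs8 tp8.isCartan w i x, ← hwi, cpr_eq x ha]
    rw [e1]
    refine H795.SetTor.rfl_mem_VV H C hA (by rw [hTL]; exact hZ) ?_
    rw [← hwi]
    refine ⟨ha, ?_⟩
    rintro s hs
    rw [Set.mem_singleton_iff.1 hs, ← cX_root tp8 cs8 htT ha, ← hφ, hex, ha0, ZMod.val_zero, pow_zero]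
  obtain ⟨m₀, hm₀, hv⟩ := hVV hucl
  have hu' : Rp cs8 H.nsys u y := H129.EE.rp_cast hTL.symm _ H.nsys hu
  have ht₀ : m₀⁻¹ * y ∈ TL (Tj tp8 (k := k)) := by
    have h1 := hv.inv.mul hu'
    rw [inv_mul_cancel] at h1
    exact h1.mem_of_one
  rw [hTL] at ht₀
  rw [XL_eq tp8 hk] at hm₀
  have hQp : IsPGroup 5 ↥(VLs.map f) := by
    rintro ⟨_, x, hx, rfl⟩
    refine ⟨1, Subtype.ext ?_⟩
    show f x ^ 5 ^ 1 = 1
    rw [pow_one, ← map_pow, VLs_pow hx, map_one]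
  have hQle : VLs.map f ≤ Subgroup.closure (insert y {t}) := by
    have h1 : t ∈ Subgroup.closure (insert y {t}) := Subgroup.subset_closure (Set.mem_insert_of_mem _ (Set.mem_singleton t))
    have h2 : y ∈ Subgroup.closure (insert y {t}) := Subgroup.subset_closure (Set.mem_insert _ _)
    rw [Subgroup.map_le_iff_le_comap]
    rintro _ ⟨a, b, rfl⟩
    rw [Subgroup.mem_comap, vl_word, map_mul, map_pow, map_pow]
    exact mul_mem (pow_mem h1 _) (pow_mem h2 _)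
  obtain ⟨g, hg⟩ := H795.TorSub.exists_toral_step tp8 3 hk (q := 5) (e := 2) (n := 1) (by norm_num) (by norm_num)
    not_dvd_W8 (Set.finite_singleton t) hZ (x := y) (m₀ := m₀) (t₀ := m₀⁻¹ * y) (by rw [mul_inv_cancel_left]) hm₀ ht₀
    (by rw [pow_one]; exact hy5) (Q := VLs.map f) hQp hQle
  exact ⟨g, fun s hs => hg (f s) (Subgroup.mem_map_of_mem f hs)⟩

/-- **T2 : torality of `f VL`** -/
theorem toral_VL (hk : LocFin k) (f : SL35 →* ↥(chevE8.group k)) (hf : Function.Injective f) (hr : ∀ x, f x ∈ GT k)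
    (h : ∀ s ∈ VP, f s ∈ T5 k) (hreg : Reg (f '' VP)) :
    ∃ g : ↥(chevE8.group k), ∀ s ∈ VL, g * f s * g⁻¹ ∈ TT chevE8 k :=
  toral_VL_of hk (fun hζ => H865.L5.exists_iso3 hk hζ) (H865.L5.exists_zeta3 k) (fun hS hr _ h => H865.L5.cent_reg hk hS hr h)
    (fun hy h => H865.L5.norm_T5 hk hy h) (fun hy _ h => H865.L5.cw_of_rp hk hy h)
    (fun hu h5 h1 _ _ hφ hψ h0 => H343.L5.fix_line hu h5 h1 hφ hψ h0) (fun hu _ h => H343.L5.five_elt hu h)
    (fun hu h5 h1 _ hφ => H762.L5.mem_refl hu h5 h1 hφ) f hf hr h hreg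

end T

end Cfsg.Agent.H969.L5
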